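import Cfsg.Prelude.Def_Local
import Cfsg.Agent.Invol.RankOneQuot
import Mathlib

/-!
# A standard double cover with cyclic centralizer Sylow 2-subgroups is normal
-/

set_option autoImplicit false
set_option linter.all false

namespace Cfsg.Agent.H40.StdDouble

open Subgroup
open scoped commutatorElement

private theorem conj_of_full {G : Type*} [Group G] [Finite G] {K X S S' : Subgroup G}
    (hKX : K ≤ X) (hSK : S ≤ K) (hS'K : S' ≤ K) (hS : IsPGroup 2 S) (hS' : IsPGroup 2 S')
    (hmax : ¬ 2 ∣ S.relIndex X) (hcard : Nat.card S' = Nat.card S) :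
    ∃ k ∈ K, S' = S.map (MulAut.conj k).toMonoidHom := by
  haveI : Fact (Nat.Prime 2) := ⟨Nat.prime_two⟩
  have h1 : ¬ 2 ∣ (S.subgroupOf K).index := by
    intro h
    apply hmax
    rw [← relIndex_mul_relIndex S K X hSK hKX]
    exact dvd_mul_of_dvd_left h _
  have h2 : ¬ 2 ∣ (S'.subgroupOf K).index := by
    have e1 := card_mul_index (S.subgroupOf K)
    have e2 := card_mul_index (S'.subgroupOf K)
    rw [Nat.card_congr (subgroupOfEquivOfLe hSK).toEquiv] at e1
    rw [Nat.card_congr (subgroupOfEquivOfLe hS'K).toEquiv, hcard, ← e1] at e2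
    rw [Nat.eq_of_mul_eq_mul_left Nat.card_pos e2]
    exact h1
  let P : Sylow 2 ↥K := (hS.of_equiv (subgroupOfEquivOfLe hSK).symm).toSylow h1
  let P' : Sylow 2 ↥K := (hS'.of_equiv (subgroupOfEquivOfLe hS'K).symm).toSylow h2
  obtain ⟨k, hk⟩ := MulAction.exists_smul_eq ↥K P P'
  refine ⟨(k : G), k.2, ?_⟩
  have hk' : (S.subgroupOf K).map (MulAut.conj k).toMonoidHom = S'.subgroupOf K := by
    have : (MulAut.conj k • P).toSubgroup = P'.toSubgroup := congrArg Sylow.toSubgroup hk
    rw [Sylow.pointwise_smul_def, Subgroup.pointwise_smul_def] at this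
    exact this
  have h3 := congrArg (Subgroup.map K.subtype) hk'
  rw [map_map, map_subgroupOf_eq_of_le hS'K] at h3
  rw [← h3, show K.subtype.comp (MulAut.conj k).toMonoidHom
      = (MulAut.conj (k : G)).toMonoidHom.comp K.subtype from MonoidHom.ext fun x => rfl,
    ← map_map, map_subgroupOf_eq_of_le hSK]

private theorem cc_map {A B : Type*} [Group A] [Group B] (f : A →* B) (S : Subgroup A) :
    ⁅⁅S.map f, S.map f⁆, S.map f⁆ = (⁅⁅S, S⁆, S⁆).map f := by
  rw [map_commutator, map_commutator]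

theorem normal_of_double {G : Type*} [Group G] [Finite G] (hO : Cfsg.oddCore G = ⊥)
    (L : Subgroup G) (hL : Cfsg.IsStandardSubgroup L)
    (hR : ∀ R : Sylow 2 ↥(Subgroup.centralizer (L : Set G)),
      IsCyclic ↥(R : Subgroup ↥(Subgroup.centralizer (L : Set G))))
    (z : ↥L) (hz : orderOf z = 2) (hZ : Subgroup.center ↥L = Subgroup.zpowers z)
    (hAut : ∀ φ : MulAut ↥L, ∃ l : ↥L, ∀ x, φ x = l * x * l⁻¹)
    (T : Sylow 2 ↥L) (h4 : ∀ y : ↥L, y ^ 4 ≠ z)
    (hcen : ∀ x ∈ (T : Subgroup ↥L), (∀ t ∈ (T : Subgroup ↥L), Commute t x) → x ^ 2 = 1)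
    (hinv : ∀ x : ↥L, x ^ 2 = 1 → x ≠ 1 → x ≠ z →
      ∃ h : ↥L, (∀ t ∈ (T : Subgroup ↥L), Commute t (h * x * h⁻¹)) ∧
      ∃ w ∈ ⁅⁅(T : Subgroup ↥L), (T : Subgroup ↥L)⁆, (T : Subgroup ↥L)⁆, w ^ 2 = h * x * h⁻¹)
    (hsq : ∀ w ∈ ⁅⁅(T : Subgroup ↥L), (T : Subgroup ↥L)⁆, (T : Subgroup ↥L)⁆, w ^ 2 ≠ z) :
    L.Normal := by
  haveI : Fact (Nat.Prime 2) := ⟨Nat.prime_two⟩
  obtain ⟨-, htight, -, hN⟩ := hL
  set C := Subgroup.centralizer (L : Set G) with hC
  set X := Subgroup.normalizer (L : Set G) with hX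
  set z₀ : G := (z : G) with hz₀
  have hz2 : z * z = 1 := by rw [← sq, ← hz, pow_orderOf_eq_one]
  have hz1 : z ≠ 1 := fun h => by simp [h] at hz
  have hz0o : orderOf z₀ = 2 := (Subgroup.orderOf_coe z).trans hz
  have hz01 : z₀ ≠ 1 := fun h => hz1 (Subtype.ext h)
  have comm : ∀ (l : ↥L) (c : ↥C), Commute (l : G) (c : G) := fun l c =>
    (Subgroup.mem_centralizer_iff.1 c.2) l l.2
  -- the centre of `L`
  have hcases : ∀ a : ↥L, a ∈ Subgroup.center ↥L → a = 1 ∨ a = z := by
    intro a ha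
    rw [hZ, Subgroup.mem_zpowers_iff] at ha
    obtain ⟨n, rfl⟩ := ha
    rw [← zpow_mod_orderOf z n, hz]
    rcases Int.emod_two_eq_zero_or_one n with h | h <;> simp [h]
  have hzc : z ∈ Subgroup.center ↥L := hZ ▸ Subgroup.mem_zpowers z
  have hzC : z₀ ∈ C := Subgroup.mem_centralizer_iff.2 fun a ha =>
    congrArg Subtype.val (Subgroup.mem_center_iff.1 hzc ⟨a, ha⟩)
  have hLC : ∀ a : ↥L, (a : G) ∈ C → a = 1 ∨ a = z := fun a ha =>
    hcases a (Subgroup.mem_center_iff.2 fun b =>
      Subtype.ext (Subgroup.mem_centralizer_iff.1 ha b b.2))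
  -- involutions of the centralizer
  have huniq : ∀ c : G, c ∈ C → c * c = 1 → Commute c z₀ → c = 1 ∨ c = z₀ := by
    intro c hc hcc hcz
    let c' : ↥C := ⟨c, hc⟩
    let z' : ↥C := ⟨z₀, hzC⟩
    have hcc' : c' * c' = 1 := Subtype.ext hcc
    have hzz' : z' * z' = 1 := Subtype.ext (show z₀ * z₀ = 1 from congrArg Subtype.val hz2)
    have hcz' : Commute c' z' := Subtype.ext hcz
    have hp : ∀ a : ↥C, a * a = 1 → IsPGroup 2 (Subgroup.zpowers a) := fun a ha => by
      rintro ⟨b, hb⟩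
      obtain ⟨n, rfl⟩ := Subgroup.mem_zpowers_iff.1 hb
      refine ⟨1, Subtype.ext ?_⟩
      rw [SubgroupClass.coe_pow, pow_one, sq, ← zpow_add, OneMemClass.coe_one,
        show n + n = 2 * n by ring, zpow_mul, zpow_two, ha, one_zpow]
    have hnorm : Subgroup.zpowers c' ≤ Subgroup.normalizer (Subgroup.zpowers z' : Set ↥C) := by
      rw [Subgroup.zpowers_le, Subgroup.mem_normalizer_iff]
      intro b
      constructor
      · intro hb
        obtain ⟨n, rfl⟩ := Subgroup.mem_zpowers_iff.1 hb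
        rw [(hcz'.zpow_right n).eq, mul_inv_cancel_right]
        exact hb
      · intro hb
        obtain ⟨n, hn⟩ := Subgroup.mem_zpowers_iff.1 hb
        have : b = c'⁻¹ * (c' * b * c'⁻¹) * c' := by group
        rw [this, ← hn, mul_assoc, ← (hcz'.zpow_right n).eq, inv_mul_cancel_left]
        exact Subgroup.zpow_mem _ (Subgroup.mem_zpowers z') n
    obtain ⟨R, hle⟩ := ((hp c' hcc').to_sup_of_normal_right' (hp z' hzz') hnorm).exists_le_sylow
    haveI := hR R
    have hcR : c' ∈ R := hle (le_sup_left (b := Subgroup.zpowers z') (Subgroup.mem_zpowers c'))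
    have hzR : z' ∈ R := hle (le_sup_right (a := Subgroup.zpowers c') (Subgroup.mem_zpowers z'))
    by_contra hne
    push Not at hne
    let a : ↥(R : Subgroup ↥C) := ⟨c', hcR⟩
    let b : ↥(R : Subgroup ↥C) := ⟨z', hzR⟩
    haveI := Fintype.ofFinite ↥(R : Subgroup ↥C)
    classical
    have h := IsCyclic.card_pow_eq_one_le (α := ↥(R : Subgroup ↥C)) (n := 2) two_pos
    have hsub : ({1, a, b} : Finset _) ⊆ Finset.univ.filter fun x => x ^ 2 = 1 := by
      intro x hx
      simp only [Finset.mem_insert, Finset.mem_singleton] at hx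
      rw [Finset.mem_filter]
      refine ⟨Finset.mem_univ _, ?_⟩
      rcases hx with rfl | rfl | rfl
      · exact one_pow 2
      · rw [sq]; exact Subtype.ext hcc'
      · rw [sq]; exact Subtype.ext hzz'
    have h3 := (Finset.card_le_card hsub).trans h
    rw [Finset.card_eq_three.2 ⟨1, a, b,
      fun e => hne.1 (congrArg (fun x : ↥(R : Subgroup ↥C) => ((x : ↥C) : G)) e).symm,
      fun e => hz01 (congrArg (fun x : ↥(R : Subgroup ↥C) => ((x : ↥C) : G)) e).symm,
      fun e => hne.2 (congrArg (fun x : ↥(R : Subgroup ↥C) => ((x : ↥C) : G)) e), rfl⟩] at h3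
    omega
  -- the product map and its image
  let f : ↥L × ↥C →* G := MonoidHom.noncommCoprod L.subtype C.subtype comm
  have hfX : ∀ p, f p ∈ X := fun p => by
    refine X.mul_mem (Subgroup.le_normalizer p.1.2) ?_
    rw [hN]
    exact Subgroup.le_normalizer p.2.2
  have hconjL : ∀ g ∈ X, ∀ a : ↥L, g * (a : G) * g⁻¹ ∈ L := fun g hg a =>
    (Subgroup.mem_normalizer_iff.1 hg _).1 a.2
  have hconjC : ∀ g ∈ X, ∀ c ∈ C, g * c * g⁻¹ ∈ C := fun g hg c hc => by
    rw [hN] at hg
    exact (Subgroup.mem_normalizer_iff.1 hg _).1 hc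
  have hXcz : ∀ g ∈ X, Commute g z₀ := by
    intro g hg
    let w : ↥L := ⟨g * z₀ * g⁻¹, hconjL g hg z⟩
    have hwC : (w : G) ∈ C := hconjC g hg z₀ hzC
    rcases hLC w hwC with h | h
    · exfalso
      have : g * z₀ * g⁻¹ = 1 := congrArg Subtype.val h
      exact hz01 (conj_eq_one_iff.1 this)
    · have : g * z₀ * g⁻¹ = z₀ := congrArg Subtype.val h
      exact mul_inv_eq_iff_eq_mul.1 this
  have hczX : ∀ g : G, Commute g z₀ → g ∈ X := by
    intro g hg
    rw [hN]
    by_contra hne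
    have hodd := htight.2 g hne
    have hzmem : z₀ ∈ C ⊓ C.map (MulAut.conj g).toMonoidHom :=
      ⟨hzC, Subgroup.mem_map.2 ⟨z₀, hzC, by
        show g * z₀ * g⁻¹ = z₀
        rw [hg.eq, mul_inv_cancel_right]⟩⟩
    have hd : orderOf z₀ ∣ Nat.card ↥(C ⊓ C.map (MulAut.conj g).toMonoidHom) :=
      Subgroup.orderOf_dvd_natCard _ hzmem
    rw [hz0o] at hd
    exact Nat.not_even_iff_odd.2 hodd (even_iff_two_dvd.2 hd)
  have hXf : ∀ g ∈ X, ∃ (l : ↥L) (c : ↥C), g = (l : G) * (c : G) := by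
    intro g hg
    let φ : MulAut ↥L :=
      { toFun := fun a => ⟨g * a * g⁻¹, hconjL g hg a⟩
        invFun := fun a => ⟨g⁻¹ * a * g, by simpa using hconjL g⁻¹ (X.inv_mem hg) a⟩
        left_inv := fun a => Subtype.ext (by group)
        right_inv := fun a => Subtype.ext (by group)
        map_mul' := fun a b => Subtype.ext (by simp only [Subgroup.coe_mul]; group) }
    obtain ⟨l, hl⟩ := hAut φ
    refine ⟨l, ⟨(l : G)⁻¹ * g, Subgroup.mem_centralizer_iff.2 fun a ha => ?_⟩,
      (mul_inv_cancel_left _ _).symm⟩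
    have h : g * a * g⁻¹ = (l : G) * a * (l : G)⁻¹ := congrArg Subtype.val (hl ⟨a, ha⟩)
    calc a * ((l : G)⁻¹ * g) = (l : G)⁻¹ * ((l : G) * a * (l : G)⁻¹) * g := by group
      _ = (l : G)⁻¹ * g * a := by rw [← h]; group
  have hrange : f.range = X := le_antisymm
    (fun g ⟨p, hp⟩ => hp ▸ hfX p)
    (fun g hg => by obtain ⟨l, c, rfl⟩ := hXf g hg; exact ⟨(l, c), rfl⟩)
  -- a Sylow 2-subgroup of `X`
  obtain ⟨R⟩ : Nonempty (Sylow 2 ↥C) := inferInstance
  haveI := hR R
  set T' := (T : Subgroup ↥L) with hT'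
  set R' := (R : Subgroup ↥C) with hR'
  set S0 : Subgroup G := (T'.prod R').map f with hS0
  have hS0p : IsPGroup 2 S0 := by
    have hTR : IsPGroup 2 (T'.prod R') := by
      refine IsPGroup.of_equiv ?_ (Subgroup.prodEquiv T' R').symm
      obtain ⟨n, hn⟩ := IsPGroup.iff_card.1 T.2
      obtain ⟨m, hm⟩ := IsPGroup.iff_card.1 R.2
      refine IsPGroup.of_card (n := n + m) ?_
      rw [Nat.card_prod, hn, hm, pow_add]
    exact hTR.map f
  have hS0X : S0 ≤ X := fun g ⟨p, _, hp⟩ => hp ▸ hfX p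
  have hS0max : ¬ 2 ∣ S0.relIndex X := by
    have h1 : (T'.prod R').index = T'.index * R'.index := Subgroup.index_prod T' R'
    have h2 : S0.relIndex X ∣ (T'.prod R').index := by
      rw [← hrange, hS0, MonoidHom.range_eq_map, Subgroup.relIndex_map_map, top_sup_eq,
        Subgroup.relIndex_top_right]
      exact Subgroup.index_dvd_of_le le_sup_left
    intro h
    have h3 := h.trans h2
    rw [h1] at h3
    rcases Nat.prime_two.dvd_mul.1 h3 with h4 | h4
    · exact T.not_dvd_index h4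
    · exact R.not_dvd_index h4
  have hT0 : T'.map L.subtype ≤ S0 := by
    rintro _ ⟨t, ht, rfl⟩
    exact ⟨(t, 1), ⟨ht, R'.one_mem⟩, by simp [f, MonoidHom.noncommCoprod]⟩
  have hK0 : ∀ w ∈ ⁅⁅S0, S0⁆, S0⁆, ∃ k ∈ ⁅⁅T', T'⁆, T'⁆, (k : G) = w := by
    intro w hw
    rw [hS0, cc_map, Subgroup.commutator_prod_prod, Subgroup.commutator_prod_prod] at hw
    have hab : ⁅R', R'⁆ = ⊥ := by
      rw [Subgroup.commutator_eq_bot_iff_le_centralizer]
      intro a ha
      rw [Subgroup.mem_centralizer_iff]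
      intro b hb
      letI := IsCyclic.commGroup (α := ↥R')
      exact congrArg Subtype.val (mul_comm (⟨b, hb⟩ : ↥R') ⟨a, ha⟩)
    rw [hab, Subgroup.commutator_bot_left] at hw
    obtain ⟨⟨k, c⟩, ⟨hk, hc⟩, rfl⟩ := hw
    refine ⟨k, hk, ?_⟩
    have : c = 1 := hc
    simp [this, f, MonoidHom.noncommCoprod]
  have hK0' : ∀ k ∈ ⁅⁅T', T'⁆, T'⁆, (k : G) ∈ ⁅⁅S0, S0⁆, S0⁆ := by
    intro k hk
    have h1 : ((k : G)) ∈ (⁅⁅T', T'⁆, T'⁆).map L.subtype := ⟨k, hk, rfl⟩
    rw [← cc_map] at h1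
    exact Subgroup.commutator_mono (Subgroup.commutator_mono hT0 hT0) hT0 h1
  -- the two possible types of a commuting conjugate of `z`
  let H : G → Subgroup G := fun u => Subgroup.centralizer {z₀} ⊓ Subgroup.centralizer {u}
  have hH : ∀ {u a : G}, a ∈ H u ↔ Commute a z₀ ∧ Commute a u := fun {u a} => by
    show a ∈ Subgroup.centralizer ({z₀} : Set G) ∧ a ∈ Subgroup.centralizer ({u} : Set G) ↔ _
    rw [Subgroup.mem_centralizer_singleton_iff, Subgroup.mem_centralizer_singleton_iff]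
    rfl
  have hHX : ∀ u, H u ≤ X := fun u a ha => hczX a (hH.1 ha).1
  let Full : G → Subgroup G → Prop := fun u S =>
    S ≤ H u ∧ IsPGroup 2 S ∧ Nat.card S = Nat.card S0
  have key : ∀ u : G, u * u = 1 → u ≠ 1 → u ≠ z₀ → Commute u z₀ →
      (∃ S, Full u S ∧ (∃ w ∈ ⁅⁅S, S⁆, S⁆, w ^ 2 = u) ∧ ∀ w ∈ ⁅⁅S, S⁆, S⁆, w ^ 2 ≠ z₀) ∨
      ((∃ c ∈ H u, c ^ 2 = z₀) ∧ (∀ s ∈ H u, s ^ 2 ≠ u) ∧ ∀ S, ¬ Full u S) := by
    intro u hu hu1 huz hcom
    obtain ⟨x, c, rfl⟩ := hXf u (hczX u hcom)
    have hxc := comm x c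
    have hxx : (x : G) * x = ((c : G) * c)⁻¹ := by
      rw [eq_inv_iff_mul_eq_one, ← hu]
      calc (x : G) * x * ((c : G) * c) = (x : G) * ((x : G) * c) * c := by group
        _ = (x : G) * ((c : G) * x) * c := by rw [hxc.eq]
        _ = (x : G) * c * ((x : G) * c) := by group
    have hxx' := hLC (x * x) (by
      rw [Subgroup.coe_mul, hxx]; exact C.inv_mem (C.mul_mem c.2 c.2))
    have hcz : Commute (c : G) z₀ := (comm z c).symm
    have hxnC : ¬ (x : G) ∈ C := fun hxC => by
      rcases huniq _ (C.mul_mem hxC c.2) hu hcom with h | h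
      · exact hu1 h
      · exact huz h
    rcases hxx' with h | h
    · -- type A
      left
      have hcc : (c : G) * c = 1 := by
        have h' : (x : G) * x = 1 := congrArg Subtype.val h
        rw [hxx, inv_eq_one] at h'
        exact h'
      obtain ⟨xu, hxu⟩ : ∃ a : ↥L, (a : G) = (x : G) * c := by
        rcases huniq c c.2 hcc hcz with hc | hc
        · exact ⟨x, by rw [hc, mul_one]⟩
        · exact ⟨x * z, by rw [hc]; rfl⟩
      rw [← hxu] at hu hu1 huz hcom ⊢
      obtain ⟨a, ha, w, hw, hwa⟩ := hinv xu (by rw [sq]; exact Subtype.ext hu)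
        (fun e => hu1 (by rw [e]; rfl)) (fun e => huz (by rw [e]))
      let ψ : G →* G := (MulAut.conj ((a : G)⁻¹)).toMonoidHom
      have hψ : ∀ g, ψ g = (a : G)⁻¹ * g * a := fun g => by
        show (a : G)⁻¹ * g * ((a : G)⁻¹)⁻¹ = _
        rw [inv_inv]
      have hψu : ψ ((a * xu * a⁻¹ : ↥L) : G) = xu := by
        rw [hψ]; simp only [Subgroup.coe_mul, Subgroup.coe_inv]; group
      have hψz : ψ z₀ = z₀ := by
        rw [hψ, mul_assoc, ((hXcz _ (Subgroup.le_normalizer a.2)).symm).eq, inv_mul_cancel_left]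
      have hψinj : Function.Injective ψ := (MulAut.conj ((a : G)⁻¹)).injective
      refine ⟨S0.map ψ, ⟨?_, hS0p.map ψ, Nat.card_congr
        (Subgroup.equivMapOfInjective S0 ψ hψinj).toEquiv.symm⟩, ?_, ?_⟩
      · rintro _ ⟨s, hs, rfl⟩
        obtain ⟨⟨t, r⟩, ⟨ht, hr⟩, rfl⟩ := hs
        refine hH.2 ⟨hXcz _ ?_, ?_⟩
        · rw [hψ]
          have := Subgroup.le_normalizer (H := L) a.2
          exact X.mul_mem (X.mul_mem (X.inv_mem this) (hfX _)) this
        · rw [← hψu]
          refine Commute.map ?_ ψ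
          show Commute ((t : G) * (r : G)) _
          exact Commute.mul_left (congrArg Subtype.val (ha t ht).eq) (comm _ r).symm
      · refine ⟨ψ (w : G), ?_, ?_⟩
        · rw [cc_map]; exact ⟨_, hK0' w hw, rfl⟩
        · rw [← map_pow, ← Subgroup.coe_pow, hwa, hψu]
      · intro w' hw'
        rw [cc_map] at hw'
        obtain ⟨v, hv, rfl⟩ := hw'
        obtain ⟨k, hk, rfl⟩ := hK0 v hv
        intro e
        rw [← map_pow, ← hψz] at e
        exact hsq k hk (Subtype.ext (hψinj e))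
    · -- type B
      right
      have hcc : (c : G) * c = z₀ := by
        have h' : (x : G) * x = z₀ := congrArg Subtype.val h
        rw [hxx] at h'
        rw [← inv_inv ((c : G) * c), h', inv_eq_iff_mul_eq_one]
        exact congrArg Subtype.val hz2
      have hxz : x * x = z := h
      refine ⟨⟨c, hH.2 ⟨hcz, Commute.mul_right hxc.symm (Commute.refl _)⟩, by rw [sq, hcc]⟩,
        ?_, ?_⟩
      · intro s hs e
        obtain ⟨l, c', rfl⟩ := hXf s (hHX _ hs)
        have hlc := comm l c'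
        rw [hlc.mul_pow] at e
        have hmem : (x : G)⁻¹ * (l : G) ^ 2 ∈ C := by
          have : (x : G)⁻¹ * (l : G) ^ 2 = (c : G) * ((c' : G) ^ 2)⁻¹ := by
            rw [eq_mul_inv_iff_mul_eq, mul_assoc, e, inv_mul_cancel_left]
          rw [this]
          exact C.mul_mem c.2 (C.inv_mem (C.pow_mem c'.2 2))
        have hl4 : l ^ 4 = z := by
          have e4 : l ^ 4 = (l ^ 2) * (l ^ 2) := by rw [← pow_add]
          rcases hLC (x⁻¹ * l ^ 2) hmem with h' | h'
          · rw [inv_mul_eq_one] at h'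
            rw [e4, ← h', hxz]
          · rw [inv_mul_eq_iff_eq_mul] at h'
            rw [e4, h', mul_assoc, ← mul_assoc z, ← Subgroup.mem_center_iff.1 hzc x, mul_assoc x z z,
              hz2, mul_one, hxz]
        exact h4 l hl4
      · rintro S ⟨hSH, hSp, hScard⟩
        obtain ⟨y, hy, rfl⟩ := conj_of_full (le_refl X) hS0X (hSH.trans (hHX _)) hS0p hSp hS0max
          hScard
        let x' : ↥L := ⟨y⁻¹ * x * y, by simpa using hconjL y⁻¹ (X.inv_mem hy) x⟩
        have hc' : y⁻¹ * c * y ∈ C := by simpa using hconjC y⁻¹ (X.inv_mem hy) c c.2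
        have hcomT : ∀ t ∈ T', Commute t x' := by
          intro t ht
          have h1 := (hH.1 (hSH ⟨(t : G), hT0 ⟨t, ht, rfl⟩, rfl⟩)).2
          have h2 : Commute (t : G) (y⁻¹ * ((x : G) * c) * y) := by
            have := h1.map (MulAut.conj y⁻¹).toMonoidHom
            simpa [MulAut.conj_apply, mul_assoc] using this
          have h3 : (x' : G) = (y⁻¹ * ((x : G) * c) * y) * (y⁻¹ * c * y)⁻¹ := by
            show y⁻¹ * x * y = _
            group
          refine Subtype.ext ?_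
          show Commute (t : G) x'
          rw [h3]
          exact h2.mul_right (comm t ⟨_, hc'⟩).inv_right
        have hx'2 : x' * x' = z := by
          refine Subtype.ext ?_
          show y⁻¹ * x * y * (y⁻¹ * x * y) = z₀
          rw [show y⁻¹ * (x : G) * y * (y⁻¹ * x * y) = y⁻¹ * ((x : G) * x) * y by group,
            show (x : G) * x = z₀ from congrArg Subtype.val hxz, mul_assoc,
            ← (hXcz y hy).eq, inv_mul_cancel_left]
        have hx'T : x' ∈ T' := by
          have hp : IsPGroup 2 (Subgroup.zpowers x') := by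
            have : orderOf x' ∣ 2 ^ 2 := by
              rw [orderOf_dvd_iff_pow_eq_one, show (2 : ℕ) ^ 2 = 2 + 2 from rfl, pow_add, sq, hx'2, hz2]
            obtain ⟨m, -, hm⟩ := (Nat.dvd_prime_pow Nat.prime_two).1 this
            exact IsPGroup.of_card (n := m) (by rw [Nat.card_zpowers, hm])
          have hnorm : Subgroup.zpowers x' ≤ Subgroup.normalizer (T' : Set ↥L) := by
            rw [Subgroup.zpowers_le, Subgroup.mem_normalizer_iff]
            intro b
            constructor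
            · intro hb; rwa [← (hcomT b hb).eq, mul_inv_cancel_right]
            · intro hb
              have h1 := hcomT _ hb
              have h2 : b = x' * b * x'⁻¹ := by
                calc b = x'⁻¹ * (x' * b * x'⁻¹ * x') := by group
                  _ = x'⁻¹ * (x' * (x' * b * x'⁻¹)) := by rw [h1.eq]
                  _ = x' * b * x'⁻¹ := by group
              rwa [h2]
          have := T.3 (hp.to_sup_of_normal_right' T.2 hnorm) le_sup_right
          exact this.le (le_sup_left (b := T') (Subgroup.mem_zpowers x'))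
        have h2 := hcen x' hx'T hcomT
        rw [sq, hx'2] at h2
        exact hz1 h2
  -- `z` is isolated
  have hiso : Invol.IsIsolatedInv z₀ := by
    refine ⟨hz0o, fun g hg => ?_⟩
    by_contra hne
    set u := g * z₀ * g⁻¹ with hu
    set v := g⁻¹ * z₀ * g with hv
    have hzz : z₀ * z₀ = 1 := congrArg Subtype.val hz2
    have hu2 : u * u = 1 := by rw [hu]; simp [mul_assoc, ← mul_assoc z₀ z₀, hzz]
    have hv2 : v * v = 1 := by rw [hv]; simp [mul_assoc, ← mul_assoc z₀ z₀, hzz]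
    let φ : G →* G := (MulAut.conj g).toMonoidHom
    have hφ : ∀ a, φ a = g * a * g⁻¹ := fun a => rfl
    have hφinj : Function.Injective φ := (MulAut.conj g).injective
    have hφz : φ z₀ = u := rfl
    have hφv : φ v = z₀ := by rw [hφ, hv]; group
    have hφc : ∀ a b : G, Commute (φ a) (φ b) ↔ Commute a b := fun a b =>
      ⟨fun h => hφinj (by rw [map_mul, map_mul]; exact h), fun h => h.map φ⟩
    have hvz : Commute v z₀ := by
      have := hg
      rw [← hφz] at this
      nth_rw 2 [← hφv] at this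
      exact (hφc _ _).1 this.symm
    have hu1 : u ≠ 1 := fun e => hz01 (conj_eq_one_iff.1 e)
    have hv1 : v ≠ 1 := fun e => hz01 (hφv.symm.trans (by rw [e, map_one]))
    have hvne : v ≠ z₀ := fun e => hne (by rw [← hφz]; nth_rw 1 [← e]; exact hφv)
    have hφH : ∀ a, φ a ∈ H u ↔ a ∈ H v := fun a => by
      rw [hH, hH, ← hφz]
      nth_rw 1 [← hφv]
      rw [hφc, hφc]
      exact and_comm
    have hfull : ∀ S, Full v S → Full u (S.map φ) := fun S ⟨h1, h2, h3⟩ =>
      ⟨by rintro _ ⟨a, ha, rfl⟩; exact (hφH a).2 (h1 ha), h2.map φ,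
        (Nat.card_congr (Subgroup.equivMapOfInjective S φ hφinj).toEquiv.symm).trans h3⟩
    have hfull' : ∀ S, Full u S → Full v (S.comap φ) := fun S ⟨h1, h2, h3⟩ => by
      have hS : (S.comap φ).map φ = S :=
        Subgroup.map_comap_eq_self_of_surjective (MulAut.conj g).surjective S
      refine ⟨fun a ha => (hφH a).1 (h1 ha), h2.comap_of_injective φ hφinj, ?_⟩
      rw [← h3]
      conv_rhs => rw [← hS]
      exact Nat.card_congr (Subgroup.equivMapOfInjective _ φ hφinj).toEquiv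
    rcases key u hu2 hu1 hne hg with ⟨S, hS, ⟨w, hw, hwu⟩, hSz⟩ | ⟨hzsq, husq, hnofull⟩
    · rcases key v hv2 hv1 hvne hvz with ⟨S', hS', ⟨w', hw', hwv⟩, hS'z⟩ | ⟨-, -, hno⟩
      · obtain ⟨h1, h2, h3⟩ := hfull S' hS'
        have hmax : ¬ 2 ∣ S.relIndex X := by
          obtain ⟨y, hy, rfl⟩ := conj_of_full (le_refl X) hS0X (hS.1.trans (hHX _)) hS0p hS.2.1
            hS0max hS.2.2
          intro h
          apply hS0max
          have hX' : X.map (MulAut.conj y).toMonoidHom = X := by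
            refine le_antisymm ?_ fun a ha => ⟨y⁻¹ * a * y,
              X.mul_mem (X.mul_mem (X.inv_mem hy) ha) hy, by
                show y * (y⁻¹ * a * y) * y⁻¹ = a
                group⟩
            rintro _ ⟨a, ha, rfl⟩
            exact X.mul_mem (X.mul_mem hy ha) (X.inv_mem hy)
          rw [← hX', Subgroup.relIndex_map_map_of_injective _ _ (MulAut.conj y).injective] at h
          exact h
        obtain ⟨k, hk, hkS⟩ := conj_of_full (hHX u) hS.1 h1 hS.2.1 h2 hmax (h3.trans hS.2.2.symm)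
        have hw2 : k * w * k⁻¹ ∈ ⁅⁅S'.map φ, S'.map φ⁆, S'.map φ⁆ := by
          rw [hkS, cc_map]; exact ⟨w, hw, rfl⟩
        rw [cc_map] at hw2
        obtain ⟨a, ha, hae⟩ := hw2
        apply hS'z a ha
        apply hφinj
        rw [map_pow, hae, conj_pow, hwu, (hH.1 hk).2.eq, mul_inv_cancel_right, hφz]
      · exact hno _ (hfull' S hS)
    · rcases key v hv2 hv1 hvne hvz with ⟨S', hS', -, -⟩ | ⟨⟨c, hc, hcz⟩, -, -⟩
      · exact hnofull _ (hfull S' hS')
      · exact husq (φ c) ((hφH c).2 hc) (by rw [← map_pow, hcz, hφz])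
  have hcenz : ∀ g : G, Commute g z₀ := fun g => by
    have h := Invol.zStar_theorem G z₀ hiso g
    rw [show Cfsg.pPrimeCore 2 G = ⊥ from hO, Subgroup.mem_bot,
      commutatorElement_eq_one_iff_mul_comm] at h
    exact h.symm
  rw [← Subgroup.normalizer_eq_top_iff]
  exact eq_top_iff.2 fun g _ => hczX g (hcenz g)

end Cfsg.Agent.H40.StdDouble
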